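import Cfsg.Agent.H141.Rg.Defs
import Cfsg.Agent.H98.Rg.PairCount
import Cfsg.Agent.H686.CharKit

/-!
# S5714, [X2] : the number of elements of small order (helper219)
-/

set_option autoImplicit false
set_option linter.unusedSectionVars false

namespace Cfsg.Agent.H219.Rg

open Cfsg Cfsg.Agent.H141.Rg

universe u

section

open scoped Classical in
/-- the indicator function -/
noncomputable def ind {T : Type u} (E : Set T) (g : T) : ℝ := if g ∈ E then 1 else 0

variable {T : Type u} [Group T]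

theorem ind_nonneg (E : Set T) (g : T) : 0 ≤ ind E g := by
  unfold ind
  split_ifs <;> norm_num

theorem ind_sq (E : Set T) (g : T) : ind E g * ind E g = ind E g := by
  unfold ind
  split_ifs <;> norm_num

variable [Fintype T]

theorem sum_ind (E : Set T) : ∑ g, ind E g = (Nat.card E : ℝ) := by
  classical
  unfold ind
  rw [Finset.sum_ite, Finset.sum_const_zero, add_zero, Finset.sum_const, nsmul_eq_mul, mul_one, Nat.card_eq_fintype_card,
    Fintype.card_subtype]

theorem sum_mulRight (f : T → ℝ) (a : T) : ∑ g, f (g * a) = ∑ g, f g :=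
  Equiv.sum_comp (Equiv.mulRight a) f

theorem sum_pair (E : Set T) (a b : T) : ∑ g, ind E (g * a) * ind E (g * b) =
    (Nat.card {y : T // y ∈ E ∧ y * (a⁻¹ * b) ∈ E} : ℝ) := by
  classical
  rw [← sum_mulRight (fun g => ind E (g * a) * ind E (g * b)) a⁻¹]
  have h1 : ∀ g : T, ind E (g * a⁻¹ * a) * ind E (g * a⁻¹ * b) = if g ∈ E ∧ g * (a⁻¹ * b) ∈ E then 1 else 0 := by
    intro g
    rw [inv_mul_cancel_right, mul_assoc]
    unfold ind
    by_cases h1 : g ∈ E <;> by_cases h2 : g * (a⁻¹ * b) ∈ E <;> simp [h1, h2]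
  rw [Finset.sum_congr rfl fun g _ => h1 g, Finset.sum_ite, Finset.sum_const_zero, add_zero, Finset.sum_const,
    nsmul_eq_mul, mul_one, Nat.card_eq_fintype_card, Fintype.card_subtype]

/-- **the second moment** -/
theorem variance {E : Set T} (hE : CInv E) {ρ : ℝ} (hρ0 : 0 ≤ ρ) (hρ : ∀ z : T, z ≠ 1 → Rat ρ z) {F : Type} [Fintype F]
    (x : F → T) (hx : Function.Injective x) :
    ∑ g, (∑ t, ind E (g * x t) - (Nat.card F : ℝ) * Nat.card E / Nat.card T) ^ 2 ≤
      (Nat.card F : ℝ) * Nat.card E + (Nat.card F : ℝ) ^ 2 * (ρ * Nat.card E) := by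
  classical
  set a : ℝ := (Nat.card E : ℝ) with ha
  set n : ℝ := (Nat.card T : ℝ) with hn
  set q : ℝ := (Nat.card F : ℝ) with hq
  have hn0 : 0 < n := by rw [hn]; exact_mod_cast Nat.card_pos
  have ha0 : 0 ≤ a := by rw [ha]; positivity
  have hcq : (Fintype.card F : ℝ) = q := by rw [hq, Nat.card_eq_fintype_card]
  have hcn : (Fintype.card T : ℝ) = n := by rw [hn, Nat.card_eq_fintype_card]
  have h1 : ∑ g, ∑ t, ind E (g * x t) = q * a := by
    rw [Finset.sum_comm, Finset.sum_congr rfl fun t _ => (sum_mulRight (ind E) (x t)).trans (sum_ind E),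
      Finset.sum_const, Finset.card_univ, nsmul_eq_mul, hcq]
  have h2 : ∑ g, (∑ t, ind E (g * x t)) ^ 2 ≤ q * a + q ^ 2 * (a ^ 2 / n + ρ * a) := by
    have e1 : ∑ g, (∑ t, ind E (g * x t)) ^ 2 = ∑ t, ∑ t', ∑ g, ind E (g * x t) * ind E (g * x t') := by
      have e2 : ∀ g, (∑ t, ind E (g * x t)) ^ 2 = ∑ t, ∑ t', ind E (g * x t) * ind E (g * x t') := by
        intro g
        rw [sq, Finset.sum_mul_sum]
      rw [Finset.sum_congr rfl fun g _ => e2 g, Finset.sum_comm]
      refine Finset.sum_congr rfl fun t _ => ?_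
      rw [Finset.sum_comm]
    rw [e1]
    have e3 : ∀ t t' : F, ∑ g, ind E (g * x t) * ind E (g * x t') ≤ (if t = t' then a else 0) + (a ^ 2 / n + ρ * a) := by
      intro t t'
      have hpos : 0 ≤ a ^ 2 / n + ρ * a := by positivity
      by_cases htt : t = t'
      · subst htt
        rw [if_pos rfl, Finset.sum_congr rfl fun g _ => ind_sq E (g * x t), sum_mulRight (ind E) (x t), sum_ind]
        linarith
      · rw [if_neg htt, zero_add, sum_pair]
        have hz : (x t)⁻¹ * x t' ≠ 1 := by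
          intro h
          exact htt (hx (inv_mul_eq_one.1 h))
        have h3 := H98.Rg.pair_count hE hρ0 (hρ _ hz)
        rw [← ha, ← hn] at h3
        rw [← sub_nonneg] at h3 ⊢
        have h4 : a ^ 2 / n + ρ * a - (Nat.card {y : T // y ∈ E ∧ y * ((x t)⁻¹ * x t') ∈ E} : ℝ) =
            (a ^ 2 + ρ * a * n - (Nat.card {y : T // y ∈ E ∧ y * ((x t)⁻¹ * x t') ∈ E} : ℝ) * n) / n := by
          field_simp
        rw [h4]
        exact div_nonneg h3 hn0.le
    refine (Finset.sum_le_sum fun t _ => Finset.sum_le_sum fun t' _ => e3 t t').trans (le_of_eq ?_)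
    have e4 : ∀ t : F, ∑ t', ((if t = t' then a else 0) + (a ^ 2 / n + ρ * a)) = a + q * (a ^ 2 / n + ρ * a) := by
      intro t
      rw [Finset.sum_add_distrib, Finset.sum_ite_eq, if_pos (Finset.mem_univ t), Finset.sum_const, Finset.card_univ,
        nsmul_eq_mul, hcq]
    rw [Finset.sum_congr rfl fun t _ => e4 t, Finset.sum_const, Finset.card_univ, nsmul_eq_mul, hcq]
    ring
  have h3 : ∑ g, (∑ t, ind E (g * x t) - q * a / n) ^ 2 =
      ∑ g, (∑ t, ind E (g * x t)) ^ 2 - 2 * (q * a / n) * ∑ g, ∑ t, ind E (g * x t) + n * (q * a / n) ^ 2 := by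
    rw [Finset.mul_sum, ← Finset.sum_sub_distrib]
    have : n * (q * a / n) ^ 2 = ∑ _g : T, (q * a / n) ^ 2 := by
      rw [Finset.sum_const, Finset.card_univ, nsmul_eq_mul, hcn]
    rw [this, ← Finset.sum_add_distrib]
    exact Finset.sum_congr rfl fun g _ => by ring
  rw [h3, h1]
  have h4 : n * (q * a / n) ^ 2 = q ^ 2 * (a ^ 2 / n) := by field_simp
  have h5 : 2 * (q * a / n) * (q * a) = 2 * (q ^ 2 * (a ^ 2 / n)) := by ring
  rw [h4, h5]
  nlinarith [h2]

end

/-- the elements of small order -/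
def small (T : Type u) [Group T] (k : ℕ) : Set T := {y | ∃ m : ℕ, 1 ≤ m ∧ (m : ℝ) ≤ k ∧ y ^ m = 1}

theorem small_cinv (T : Type u) [Group T] (k : ℕ) : CInv (small T k) := by
  rintro y ⟨m, h1, h2, h3⟩ g
  exact ⟨m, h1, h2, by rw [conj_pow, h3, mul_one, mul_inv_cancel]⟩

/-- few solutions for `g ∈ S` -/
theorem sum_le {T : Type u} [Group T] [Fintype T] {F : Type} [Fintype F] (x : F → T) {D k : ℕ} {g : T}
    (hD : ∀ m, 1 ≤ m → m ≤ k → Nat.card {t : F // (g * x t) ^ m = 1} ≤ D * m) :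
    ∑ t, ind (small T k) (g * x t) ≤ D * k ^ 2 := by
  classical
  have h1 : ∀ t, ind (small T k) (g * x t) ≤ ∑ m ∈ Finset.Icc 1 k, if (g * x t) ^ m = 1 then (1 : ℝ) else 0 := by
    intro t
    unfold ind
    split_ifs with h
    · obtain ⟨m, h1, h2, h3⟩ := h
      have h4 : m ∈ Finset.Icc 1 k := Finset.mem_Icc.2 ⟨h1, by exact_mod_cast h2⟩
      refine le_trans (le_of_eq ?_) (Finset.single_le_sum (f := fun m => if (g * x t) ^ m = 1 then (1 : ℝ) else 0)
        (fun m _ => by split_ifs <;> norm_num) h4)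
      rw [if_pos h3]
    · exact Finset.sum_nonneg fun m _ => by split_ifs <;> norm_num
  refine (Finset.sum_le_sum fun t _ => h1 t).trans ?_
  rw [Finset.sum_comm]
  have h2 : ∀ m ∈ Finset.Icc 1 k, ∑ t : F, (if (g * x t) ^ m = 1 then (1 : ℝ) else 0) ≤ D * k := by
    intro m hm
    rw [Finset.mem_Icc] at hm
    have h3 : ∑ t : F, (if (g * x t) ^ m = 1 then (1 : ℝ) else 0) = (Nat.card {t : F // (g * x t) ^ m = 1} : ℝ) := by
      rw [Finset.sum_ite, Finset.sum_const_zero, add_zero, Finset.sum_const, nsmul_eq_mul, mul_one,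
        Nat.card_eq_fintype_card, Fintype.card_subtype]
    rw [h3]
    calc (Nat.card {t : F // (g * x t) ^ m = 1} : ℝ) ≤ ((D * m : ℕ) : ℝ) := by exact_mod_cast hD m hm.1 hm.2
      _ ≤ ((D * k : ℕ) : ℝ) := by exact_mod_cast Nat.mul_le_mul_left D hm.2
      _ = D * k := by push_cast; ring
  refine (Finset.sum_le_sum h2).trans (le_of_eq ?_)
  rw [Finset.sum_const, Nat.card_Icc, nsmul_eq_mul, Nat.add_sub_cancel]
  ring

/-- with `0 ≤ ρ` -/
theorem ordLe_of_rat' {T : Type u} [Group T] [Finite T] {ρ : ℝ} (hρ0 : 0 ≤ ρ) (hρ : ∀ z : T, z ≠ 1 → Rat ρ z)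
    {F : Type} [Finite F] [Nonempty F] (x : F → T) (hx : Function.Injective x) {c : ℝ} (hc : 0 < c) (S : Set T)
    (hS : c * (Nat.card T : ℝ) ≤ Nat.card S) {D k : ℕ} (hk : 1 ≤ k)
    (hD : ∀ g ∈ S, ∀ m, 1 ≤ m → m ≤ k → Nat.card {t : F // (g * x t) ^ m = 1} ≤ D * m) :
    (ordLe T k : ℝ) ≤ max (2 * D * k ^ 2 / (Nat.card F : ℝ)) (4 * (1 / (Nat.card F : ℝ) + ρ) / c) * Nat.card T := by
  classical
  have := Fintype.ofFinite T
  have := Fintype.ofFinite F
  have hcE : (ordLe T k : ℝ) = Nat.card (small T k) := rfl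
  have hV := variance (small_cinv T k) hρ0 hρ x hx
  have hq0 : (0 : ℝ) < Nat.card F := by exact_mod_cast Nat.card_pos
  have hn0 : (0 : ℝ) < Nat.card T := by exact_mod_cast Nat.card_pos
  rw [hcE]
  have ha0 : (0 : ℝ) < Nat.card (small T k) := by
    have : Nonempty (small T k) := ⟨⟨1, 1, le_rfl, by exact_mod_cast hk, one_pow 1⟩⟩
    exact_mod_cast Nat.card_pos
  set a : ℝ := (Nat.card (small T k) : ℝ) with ha
  set n : ℝ := (Nat.card T : ℝ) with hn
  set q : ℝ := (Nat.card F : ℝ) with hq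
  rw [← div_le_iff₀ hn0, le_max_iff]
  by_contra hcon
  push Not at hcon
  obtain ⟨h1, h2⟩ := hcon
  have h3 : 2 * (D * (k : ℝ) ^ 2) < q * a / n := by
    rw [div_lt_iff₀ hq0] at h1
    calc 2 * (D * (k : ℝ) ^ 2) = 2 * D * (k : ℝ) ^ 2 := by ring
      _ < a / n * q := h1
      _ = q * a / n := by ring
  -- the elements of `S`
  have h4 : ∀ g ∈ S, (q * a / n / 2) ^ 2 ≤ (∑ t, ind (small T k) (g * x t) - q * a / n) ^ 2 := by
    intro g hg
    have h5 := sum_le x (D := D) (k := k) (g := g) (hD g hg)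
    have h6 : q * a / n / 2 ≤ q * a / n - ∑ t, ind (small T k) (g * x t) := by linarith
    have h7 : 0 ≤ q * a / n / 2 := by positivity
    calc (q * a / n / 2) ^ 2 ≤ (q * a / n - ∑ t, ind (small T k) (g * x t)) ^ 2 := by gcongr
      _ = _ := by ring
  have h5 : (Nat.card S : ℝ) * (q * a / n / 2) ^ 2 ≤ q * a + q ^ 2 * (ρ * a) := by
    refine le_trans ?_ hV
    rw [← sum_ind S, Finset.sum_mul]
    refine Finset.sum_le_sum fun g _ => ?_
    unfold ind
    split_ifs with hg
    · rw [one_mul]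
      have := h4 g hg
      unfold ind at this
      exact this
    · rw [zero_mul]; positivity
  have h6 : c * n * (q * a / n / 2) ^ 2 ≤ q * a + q ^ 2 * (ρ * a) :=
    (mul_le_mul_of_nonneg_right hS (by positivity)).trans h5
  have h7 : c * n * (q * a / n / 2) ^ 2 = (c * (a / n) / 4) * (q ^ 2 * a) := by
    field_simp
    ring
  have h8 : q * a + q ^ 2 * (ρ * a) = (1 / q + ρ) * (q ^ 2 * a) := by
    field_simp
  rw [h7, h8] at h6
  have h9 : c * (a / n) / 4 ≤ 1 / q + ρ := le_of_mul_le_mul_right h6 (by positivity)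
  rw [div_lt_iff₀ hc] at h2
  linarith

/-- a nontrivial group has a nontrivial irreducible character -/
theorem exists_irr {T : Type u} [Group T] [Finite T] [Nontrivial T] : ∃ χ : IrrCharacter T, ∃ g, (χ : T → ℂ) g ≠ 1 := by
  have hft : Fintype T := Fintype.ofFinite _
  have hfin : Finite (IrrCharacter T) := Characters.Core.finite_irr
  have hft' : Fintype (IrrCharacter T) := Fintype.ofFinite _
  by_contra hcon
  push Not at hcon
  have h1 := H686.CharKit.sum_normSq (G := T) 1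
  have h2 : Nat.card (Subgroup.centralizer ({1} : Set T)) = Nat.card T := by
    rw [show Subgroup.centralizer ({1} : Set T) = ⊤ by
      ext g
      simp [Subgroup.mem_centralizer_singleton_iff], Subgroup.card_top]
  rw [h2] at h1
  have h3 : ∑ χ : IrrCharacter T, Complex.normSq ((χ : T → ℂ) 1) ≤ 1 := by
    have h4 : Subsingleton (IrrCharacter T) := by
      refine ⟨fun χ ψ => Subtype.ext ?_⟩
      funext g
      rw [show χ.1 g = 1 from hcon χ g, show ψ.1 g = 1 from hcon ψ g]
    calc ∑ χ : IrrCharacter T, Complex.normSq ((χ : T → ℂ) 1) = ∑ χ : IrrCharacter T, (1 : ℝ) :=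
          Finset.sum_congr rfl fun χ _ => by rw [hcon χ 1, Complex.normSq_one]
      _ = Fintype.card (IrrCharacter T) := by simp
      _ ≤ 1 := by exact_mod_cast Fintype.card_le_one_iff_subsingleton.2 h4
  rw [h1] at h3
  have h4 : 1 < Nat.card T := Finite.one_lt_card
  have h5 : (1 : ℝ) < Nat.card T := by exact_mod_cast h4
  linarith

/-- **[X2]** -/
theorem ordLe_of_rat {T : Type u} [Group T] [Finite T] {ρ : ℝ} (hρ : ∀ z : T, z ≠ 1 → Rat ρ z)
    {F : Type} [Finite F] [Nonempty F] (x : F → T) (hx : Function.Injective x) {c : ℝ} (hc : 0 < c) (S : Set T)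
    (hS : c * (Nat.card T : ℝ) ≤ Nat.card S) {D k : ℕ} (hk : 1 ≤ k)
    (hD : ∀ g ∈ S, ∀ m, 1 ≤ m → m ≤ k → Nat.card {t : F // (g * x t) ^ m = 1} ≤ D * m) :
    (ordLe T k : ℝ) ≤ max (2 * D * k ^ 2 / (Nat.card F : ℝ)) (4 * (1 / (Nat.card F : ℝ) + ρ) / c) * Nat.card T := by
  rcases subsingleton_or_nontrivial T with hT | hT
  · -- the trivial group
    have hF : Nat.card F = 1 := by
      have h1 : Nat.card F ≤ Nat.card T := Nat.card_le_card_of_injective x hx
      rw [Nat.card_eq_one_iff_unique.2 ⟨hT, ⟨1⟩⟩] at h1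
      have h2 : 0 < Nat.card F := Nat.card_pos
      omega
    have hn : Nat.card T = 1 := Nat.card_eq_one_iff_unique.2 ⟨hT, ⟨1⟩⟩
    have h1 : ordLe T k ≤ 1 := by
      rw [← hn]
      exact Nat.card_le_card_of_injective (fun y => y.1) Subtype.val_injective
    have h1S : (1 : T) ∈ S := by
      by_contra h2
      have h3 : Nat.card S = 0 := by
        have : IsEmpty S := ⟨fun y => h2 (by rw [Subsingleton.elim (1 : T) y.1]; exact y.2)⟩
        exact Nat.card_of_isEmpty
      rw [h3, hn] at hS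
      simp only [Nat.cast_one, mul_one, CharP.cast_eq_zero] at hS
      linarith
    have hD1 : 1 ≤ D := by
      obtain ⟨t⟩ := ‹Nonempty F›
      have h2 := hD 1 h1S 1 le_rfl hk
      have h3 : 0 < Nat.card {t : F // (1 * x t) ^ 1 = 1} := by
        have : Nonempty {t : F // (1 * x t) ^ 1 = 1} := ⟨⟨t, Subsingleton.elim _ _⟩⟩
        exact Nat.card_pos
      omega
    rw [hF, hn]
    simp only [Nat.cast_one, div_one, mul_one]
    refine le_trans ?_ (le_max_left _ _)
    have h2 : (1 : ℝ) ≤ D := by exact_mod_cast hD1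
    have h3 : (1 : ℝ) ≤ k := by exact_mod_cast hk
    have h4 : (ordLe T k : ℝ) ≤ 1 := by exact_mod_cast h1
    nlinarith [one_le_pow₀ h3 (n := 2)]
  · have hρ0 : 0 ≤ ρ := by
      obtain ⟨χ, hχ⟩ := exists_irr (T := T)
      obtain ⟨z, hz⟩ := exists_ne (1 : T)
      have h1 := hρ z hz χ χ.2 hχ
      have h2 : 0 < ((χ : T → ℂ) 1).re := by
        obtain ⟨m, hm, hχm⟩ := Characters.Core.isIrr_apply_one χ.2
        rw [hχm, Complex.natCast_re]
        exact_mod_cast hm
      by_contra hcon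
      push Not at hcon
      have h3 := norm_nonneg ((χ : T → ℂ) z)
      nlinarith
    exact ordLe_of_rat' hρ0 hρ x hx hc S hS hk hD

end Cfsg.Agent.H219.Rg
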